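import Cfsg.Agent.H329.BSW

/-!
# The Brauer-Suzuki-Wall configuration: the Sylow 2-subgroup is dihedral (helper329, for S3282)
-/

set_option autoImplicit false

namespace Cfsg.Agent.H329.BSW

open Subgroup Cfsg.Agent.H329.PSLTwo

/-- `L⟨s⟩` -/
def ext {G : Type*} [Group G] (L : Subgroup G) (s : G) (hss : s * s = 1)
    (hL : ∀ x ∈ L, s * x * s ∈ L) : Subgroup G where
  carrier := {g | g ∈ L ∨ g * s ∈ L}
  one_mem' := Or.inl L.one_mem
  mul_mem' := by
    rintro a b (ha | ha) (hb | hb)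
    · exact Or.inl (L.mul_mem ha hb)
    · right; rw [mul_assoc]; exact L.mul_mem ha hb
    · right
      have : a * b * s = (a * s) * (s * b * s) := by
        calc a * b * s = a * 1 * b * s := by group
          _ = a * (s * s) * b * s := by rw [hss]
          _ = (a * s) * (s * b * s) := by group
      rw [this]; exact L.mul_mem ha (hL b hb)
    · left
      have : a * b = (a * s) * (s * (b * s) * s) := by
        calc a * b = a * 1 * b * 1 := by group
          _ = a * (s * s) * b * (s * s) := by rw [hss]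
          _ = (a * s) * (s * (b * s) * s) := by group
      rw [this]; exact L.mul_mem ha (hL _ hb)
  inv_mem' := by
    rintro a (ha | ha)
    · exact Or.inl (L.inv_mem ha)
    · right
      have hsi : s⁻¹ = s := inv_eq_of_mul_eq_one_left hss
      have : a⁻¹ * s = s * (a * s)⁻¹ * s := by
        rw [mul_inv_rev, hsi, ← mul_assoc, hss, one_mul]
      rw [this]; exact hL _ (L.inv_mem ha)

theorem mem_ext {G : Type*} [Group G] {L : Subgroup G} {s : G} {hss : s * s = 1}
    {hL : ∀ x ∈ L, s * x * s ∈ L} {g : G} : g ∈ ext L s hss hL ↔ g ∈ L ∨ g * s ∈ L := Iff.rfl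

theorem card_ext {G : Type*} [Group G] [Finite G] {L : Subgroup G} {s : G} {hss : s * s = 1}
    {hL : ∀ x ∈ L, s * x * s ∈ L} (hs : s ∉ L) : Nat.card (ext L s hss hL) = 2 * Nat.card L := by
  have h1 : (ext L s hss hL : Set G) = (L : Set G) ∪ (fun x => x * s) '' (L : Set G) := by
    ext g
    rw [SetLike.mem_coe, mem_ext, Set.mem_union, Set.mem_image, SetLike.mem_coe]
    constructor
    · rintro (h | h)
      · exact Or.inl h
      · right
        exact ⟨g * s, h, by rw [mul_assoc, hss, mul_one]⟩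
    · rintro (h | ⟨x, hx, rfl⟩)
      · exact Or.inl h
      · right
        rw [mul_assoc, hss, mul_one]; exact hx
  have h2 : Disjoint (L : Set G) ((fun x => x * s) '' (L : Set G)) := by
    rw [Set.disjoint_left]
    rintro _ hg ⟨x, hx, rfl⟩
    apply hs
    have : s = x⁻¹ * (x * s) := by group
    rw [this]
    exact L.mul_mem (L.inv_mem hx) hg
  have h3 : Nat.card (ext L s hss hL) = (ext L s hss hL : Set G).ncard := (Nat.card_coe_set_eq _)
  have h4 : Nat.card L = (L : Set G).ncard := (Nat.card_coe_set_eq _)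
  rw [h3, h1, Set.ncard_union_eq h2 (Set.toFinite _) (Set.toFinite _), h4,
    Set.ncard_image_of_injective _ (mul_left_injective s)]
  ring

section

variable {G : Type*} [Group G] {t s : G} {K : Subgroup G} (h : Hyp t s K)
include h

theorem Hyp.uniq {x : G} (hx : x ∈ K) (hxx : x * x = 1) : x = 1 ∨ x = t := by
  apply h.CK x hx
  have h1 := h.sxs hx
  have h2 : x⁻¹ = x := inv_eq_of_mul_eq_one_left hxx
  rw [h2] at h1
  calc x * s = (s * x * s) * s := by rw [h1]
    _ = s * x * (s * s) := by group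
    _ = s * x := by rw [h.ss, mul_one]

theorem Hyp.exists_gen [Finite G] : ∃ c ∈ K, t ∈ zpowers c ∧ (∃ m, orderOf c = 2 ^ (m + 1)) ∧
    ∀ n, ∀ x ∈ K, x ^ (2 ^ n) = 1 → x ∈ zpowers c := by
  classical
  have hne : ({x : G | x ∈ K ∧ ∃ n, x ^ (2 ^ n) = 1} : Set G).Nonempty :=
    ⟨t, h.tK, 1, by rw [pow_one, pow_two, h.tt]⟩
  obtain ⟨c, ⟨hcK, n₀, hc⟩, hmax⟩ := Set.exists_max_image _ (fun x => orderOf x) (Set.toFinite _) hne
  have hc2 : 2 ≤ orderOf c := by
    have := hmax t ⟨h.tK, 1, by rw [pow_one, pow_two, h.tt]⟩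
    rwa [h.ht] at this
  obtain ⟨m', hm', hcm⟩ := (Nat.dvd_prime_pow Nat.prime_two).1 (orderOf_dvd_of_pow_eq_one hc)
  obtain ⟨m, rfl⟩ : ∃ m, m' = m + 1 := ⟨m' - 1, by
    have : m' ≠ 0 := by rintro rfl; rw [hcm] at hc2; norm_num at hc2
    omega⟩
  have htc : t ∈ zpowers c := by
    have h1 : c ^ (2 ^ m) * c ^ (2 ^ m) = 1 := by
      rw [← pow_add, ← two_mul, mul_comm, ← pow_succ, ← hcm, pow_orderOf_eq_one]
    have h2 : c ^ (2 ^ m) ≠ 1 := by
      intro h3
      have h4 := orderOf_dvd_of_pow_eq_one h3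
      rw [hcm] at h4
      have := Nat.le_of_dvd (by positivity) h4
      rw [pow_succ] at this
      have : 0 < 2 ^ m := by positivity
      omega
    rcases h.uniq (K.pow_mem hcK _) h1 with h3 | h3
    · exact absurd h3 h2
    · rw [← h3]; exact npow_mem_zpowers c _
  refine ⟨c, hcK, htc, ⟨m, hcm⟩, ?_⟩
  intro n
  induction n with
  | zero => intro x _ hx; rw [pow_zero, pow_one] at hx; rw [hx]; exact one_mem _
  | succ n ih =>
    intro x hx hxn
    have h1 : x ^ 2 ∈ zpowers c := by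
      apply ih _ (K.pow_mem hx 2)
      rw [← pow_mul, mul_comm, ← pow_succ]; exact hxn
    obtain ⟨i, hi⟩ := mem_zpowers_iff.1 h1
    rcases Int.even_or_odd' i with ⟨j, rfl | rfl⟩
    · have hcomm : x * (c ^ j) = c ^ j * x := h.ab x hx _ (K.zpow_mem hcK j)
      have h2 : (x * (c ^ j)⁻¹) * (x * (c ^ j)⁻¹) = 1 := by
        have h3 : (c ^ j)⁻¹ * x = x * (c ^ j)⁻¹ := by
          rw [inv_mul_eq_iff_eq_mul, ← mul_assoc, ← hcomm, mul_assoc, mul_inv_cancel, mul_one]
        calc (x * (c ^ j)⁻¹) * (x * (c ^ j)⁻¹) = x * ((c ^ j)⁻¹ * x) * (c ^ j)⁻¹ := by group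
          _ = x * (x * (c ^ j)⁻¹) * (c ^ j)⁻¹ := by rw [h3]
          _ = x ^ 2 * (c ^ (2 * j))⁻¹ := by rw [pow_two, two_mul, zpow_add]; group
          _ = 1 := by rw [hi, mul_inv_cancel]
      have h3 : x = (x * (c ^ j)⁻¹) * c ^ j := by group
      rcases h.uniq (K.mul_mem hx (K.inv_mem (K.zpow_mem hcK j))) h2 with h4 | h4
      · rw [h3, h4, one_mul]; exact zpow_mem_zpowers c j
      · rw [h3, h4]; exact mul_mem htc (zpow_mem_zpowers c j)
    · exfalso
      have h2 : orderOf (x ^ 2) = orderOf c := by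
        have hco : IsCoprime ((2 : ℤ) ^ (m + 1)) (2 * j + 1) := by
          apply IsCoprime.pow_left
          exact ⟨-j, 1, by ring⟩
        obtain ⟨a, b, hab⟩ := hco
        have hc1 : c ^ ((2 : ℤ) ^ (m + 1)) = 1 := by
          have : ((2 : ℤ) ^ (m + 1)) = ((2 ^ (m + 1) : ℕ) : ℤ) := by push_cast; rfl
          rw [this, zpow_natCast, ← hcm, pow_orderOf_eq_one]
        have hcx : c ∈ zpowers (x ^ 2) := by
          refine mem_zpowers_iff.2 ⟨b, ?_⟩
          rw [← hi, ← zpow_mul]
          have e1 : (2 * j + 1) * b = 1 - a * (2 : ℤ) ^ (m + 1) := by linear_combination hab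
          rw [e1, zpow_sub, zpow_one, mul_comm a, zpow_mul, hc1, one_zpow, inv_one, mul_one]
        have h5 : zpowers (x ^ 2) = zpowers c :=
          le_antisymm (zpowers_le.2 h1) (zpowers_le.2 hcx)
        rw [← Nat.card_zpowers, h5, Nat.card_zpowers]
      obtain ⟨k, hk, hxk⟩ := (Nat.dvd_prime_pow Nat.prime_two).1 (orderOf_dvd_of_pow_eq_one hxn)
      have hk0 : k ≠ 0 := by
        rintro rfl
        rw [pow_zero, orderOf_eq_one_iff] at hxk
        rw [hxk, one_pow, orderOf_one] at h2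
        omega
      obtain ⟨k', rfl⟩ := Nat.exists_eq_succ_of_ne_zero hk0
      have h3 : orderOf (x ^ 2) = 2 ^ k' := by
        rw [orderOf_pow' x two_ne_zero, hxk, Nat.succ_eq_add_one, pow_succ]
        simp
      have h4 := hmax x ⟨hx, n + 1, hxn⟩
      rw [hxk, ← h2, h3, Nat.succ_eq_add_one, pow_succ] at h4
      have : 0 < 2 ^ k' := by positivity
      omega

theorem Hyp.szs {c : G} (hc : c ∈ K) : ∀ x ∈ zpowers c, s * x * s ∈ zpowers c := by
  intro x hx
  rw [h.sxs (zpowers_le.2 hc hx)]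
  exact inv_mem hx

/-- The Sylow 2-subgroup. -/
theorem Hyp.exists_sylow [Finite G] : ∃ c ∈ K, t ∈ zpowers c ∧ (∃ m, orderOf c = 2 ^ (m + 1)) ∧
    (∀ n, ∀ x ∈ K, x ^ (2 ^ n) = 1 → x ∈ zpowers c) ∧
    ∃ S : Sylow 2 G, Nat.card S = 2 * orderOf c ∧ (∀ x, x ∈ S ↔ x ∈ zpowers c ∨ x * s ∈ zpowers c) ∧
      Nonempty ((S : Subgroup G) ≃* DihedralGroup (orderOf c)) := by
  classical
  obtain ⟨c, hcK, htc, ⟨m, hcm⟩, hmax⟩ := h.exists_gen
  refine ⟨c, hcK, htc, ⟨m, hcm⟩, hmax, ?_⟩
  have hsc : s ∉ zpowers c := fun h1 => h.sK (zpowers_le.2 hcK h1)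
  have hT : Nat.card (ext (zpowers c) s h.ss (h.szs hcK)) = 2 * orderOf c := by
    rw [card_ext hsc, Nat.card_zpowers]
  have hTp : IsPGroup 2 (ext (zpowers c) s h.ss (h.szs hcK)) := by
    rw [IsPGroup.iff_card]
    exact ⟨m + 2, by rw [hT, hcm]; ring⟩
  obtain ⟨S, hS⟩ := hTp.exists_le_sylow
  have hprime : Fact (Nat.Prime 2) := ⟨Nat.prime_two⟩
  -- central involution of S
  have hSnt : Nontrivial S := by
    have : (1 : G) ≠ t := h.t1.symm
    refine ⟨⟨⟨1, one_mem _⟩, ⟨t, hS (Or.inl htc)⟩, fun h1 => this (congrArg Subtype.val h1)⟩⟩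
  have hcn : Nontrivial (center S) := S.isPGroup'.center_nontrivial
  have hcp : IsPGroup 2 (center S) := S.isPGroup'.to_subgroup _
  obtain ⟨z, hz⟩ : ∃ z : center S, orderOf z = 2 := by
    apply exists_prime_orderOf_dvd_card'
    obtain ⟨k, hk⟩ := (IsPGroup.iff_card).1 hcp
    rw [hk]
    have : k ≠ 0 := by
      rintro rfl
      rw [pow_zero] at hk
      have := Finite.one_lt_card (α := center S)
      omega
    exact dvd_pow_self 2 this
  have hz' : orderOf ((z : S) : G) = 2 := by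
    rw [Subgroup.orderOf_coe, Subgroup.orderOf_coe]; exact hz
  obtain ⟨g, hg⟩ := h.exists_conj hz'
  have hφ : ∀ x ∈ S, g⁻¹ * x * g * t = t * (g⁻¹ * x * g) := by
    intro x hx
    have h1 : x * ((z : S) : G) = ((z : S) : G) * x := by
      have := (mem_center_iff.1 z.2) ⟨x, hx⟩
      exact congrArg Subtype.val this
    rw [hg] at h1
    calc g⁻¹ * x * g * t = g⁻¹ * (x * (g * t * g⁻¹)) * g := by group
      _ = g⁻¹ * (g * t * g⁻¹ * x) * g := by rw [h1]
      _ = t * (g⁻¹ * x * g) := by group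
  have hφp : ∀ x ∈ S, ∃ n, (g⁻¹ * x * g) ^ (2 ^ n) = 1 := by
    intro x hx
    obtain ⟨n, hn⟩ := S.isPGroup' ⟨x, hx⟩
    refine ⟨n, ?_⟩
    have h1 : x ^ (2 ^ n) = 1 := congrArg Subtype.val hn
    have h2 : g⁻¹ * x * g = g⁻¹ * x * (g⁻¹)⁻¹ := by rw [inv_inv]
    rw [h2, conj_pow, h1]; group
  have hcz : (zpowers c : Set G).ncard = orderOf c := by
    have : Nat.card (zpowers c) = (zpowers c : Set G).ncard := Nat.card_coe_set_eq _
    rw [← this, Nat.card_zpowers]
  have hcardS : Nat.card S ≤ 2 * orderOf c := by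
    have e1 : Nat.card S = ((S : Subgroup G) : Set G).ncard := Nat.card_coe_set_eq _
    have hsplit : ((S : Subgroup G) : Set G) =
        {x | x ∈ S ∧ g⁻¹ * x * g ∈ K} ∪ {x | x ∈ S ∧ g⁻¹ * x * g ∉ K} := by
      ext x
      simp only [SetLike.mem_coe, Set.mem_union, Set.mem_setOf_eq]
      constructor
      · intro hx
        by_cases h1 : g⁻¹ * x * g ∈ K
        · exact Or.inl ⟨hx, h1⟩
        · exact Or.inr ⟨hx, h1⟩
      · rintro (h1 | h1)
        · exact h1.1
        · exact h1.1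
    have hb1 : ({x | x ∈ S ∧ g⁻¹ * x * g ∈ K} : Set G).ncard ≤ orderOf c := by
      rw [← hcz]
      apply Set.ncard_le_ncard_of_injOn (fun x => g⁻¹ * x * g)
      · rintro x ⟨hx, hxK⟩
        obtain ⟨n, hn⟩ := hφp x hx
        exact hmax n _ hxK hn
      · intro x _ y _ hxy
        simpa using hxy
    have hb2 : ({x | x ∈ S ∧ g⁻¹ * x * g ∉ K} : Set G).ncard ≤ orderOf c := by
      by_cases hex : ∃ r, r ∈ S ∧ g⁻¹ * r * g ∉ K
      · obtain ⟨r, hr, hrK⟩ := hex
        rw [← hcz]
        apply Set.ncard_le_ncard_of_injOn (fun x => g⁻¹ * (r⁻¹ * x) * g)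
        · rintro x ⟨hx, hxK⟩
          obtain ⟨n, hn⟩ := hφp (r⁻¹ * x) (S.mul_mem (S.inv_mem hr) hx)
          apply hmax n _ _ hn
          have h1 := (h.gen _ (hφ r hr)).resolve_left hrK
          have h2 := (h.gen _ (hφ x hx)).resolve_left hxK
          have h3 : g⁻¹ * (r⁻¹ * x) * g = s * ((g⁻¹ * r * g * s)⁻¹ * (g⁻¹ * x * g * s)) * s := by
            rw [mul_inv_rev, h.si]
            calc g⁻¹ * (r⁻¹ * x) * g = 1 * ((g⁻¹ * r * g)⁻¹ * (g⁻¹ * x * g)) * 1 := by group
              _ = (s * s) * ((g⁻¹ * r * g)⁻¹ * (g⁻¹ * x * g)) * (s * s) := by rw [h.ss]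
              _ = s * (s * (g⁻¹ * r * g)⁻¹ * (g⁻¹ * x * g * s)) * s := by group
          rw [h3, h.sxs (K.mul_mem (K.inv_mem h1) h2)]
          exact K.inv_mem (K.mul_mem (K.inv_mem h1) h2)
        · intro x _ y _ hxy
          simpa using hxy
      · have : ({x | x ∈ S ∧ g⁻¹ * x * g ∉ K} : Set G) = ∅ := by
          rw [Set.eq_empty_iff_forall_notMem]
          intro x hx
          exact hex ⟨x, hx⟩
        rw [this, Set.ncard_empty]; exact Nat.zero_le _
    rw [e1, hsplit]
    calc _ ≤ _ := Set.ncard_union_le _ _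
      _ ≤ orderOf c + orderOf c := Nat.add_le_add hb1 hb2
      _ = 2 * orderOf c := by ring
  have hST : ext (zpowers c) s h.ss (h.szs hcK) = (S : Subgroup G) := by
    apply Subgroup.eq_of_le_of_card_ge hS
    rw [hT]; exact hcardS
  have hmem : ∀ x, x ∈ S ↔ x ∈ zpowers c ∨ x * s ∈ zpowers c := by
    intro x
    show x ∈ (S : Subgroup G) ↔ _
    rw [← hST]; rfl
  refine ⟨S, ?_, hmem, ?_⟩
  · have : Nat.card S = Nat.card (S : Subgroup G) := rfl
    rw [this, ← hST, hT]
  · have hcs : orderOf (c * s) = 2 := by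
      apply order_of_mul_self
      · calc c * s * (c * s) = c * (s * c * s) := by group
          _ = 1 := by rw [h.sxs hcK, mul_inv_cancel]
      · intro h2
        apply h.sK
        have : s = c⁻¹ := eq_inv_of_mul_eq_one_right h2
        rw [this]; exact K.inv_mem hcK
    have hne : c * s ≠ s := by
      intro h1
      have : c = 1 := by simpa using h1
      rw [this, orderOf_one] at hcm
      have : 2 ≤ 2 ^ (m + 1) := by rw [pow_succ]; have : 0 < 2 ^ m := by positivity
                                   omega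
      omega
    have hcl : Subgroup.closure ({c * s, s} : Set G) = (S : Subgroup G) := by
      apply le_antisymm
      · rw [closure_le]
        rintro x (h1 | h1)
        · rw [h1]
          show c * s ∈ S
          rw [hmem]; right
          rw [mul_assoc, h.ss, mul_one]; exact mem_zpowers c
        · rw [Set.mem_singleton_iff.1 h1]
          show s ∈ S
          rw [hmem]; right
          rw [h.ss]; exact one_mem _
      · have hs' : s ∈ Subgroup.closure ({c * s, s} : Set G) := subset_closure (by simp)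
        have hc' : c ∈ Subgroup.closure ({c * s, s} : Set G) := by
          have h1 : c * s ∈ Subgroup.closure ({c * s, s} : Set G) := subset_closure (by simp)
          have h2 : c = c * s * s := by rw [mul_assoc, h.ss, mul_one]
          have h3 := mul_mem h1 hs'
          rwa [← h2] at h3
        intro x hx
        rcases (hmem x).1 hx with h1 | h1
        · exact (zpowers_le.2 hc') h1
        · have h2 : x = x * s * s := by rw [mul_assoc, h.ss, mul_one]
          rw [h2]; exact mul_mem ((zpowers_le.2 hc') h1) hs'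
    obtain ⟨e⟩ := Cfsg.Agent.S0206.result (c * s) s hcs h.hs hne
    rw [show c * s * s = c by rw [mul_assoc, h.ss, mul_one]] at e
    exact ⟨(MulEquiv.subgroupCongr hcl.symm).trans e⟩

end

end Cfsg.Agent.H329.BSW
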