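import Cfsg.Agent.OrdDiv.Main

/-!
# A known simple group of the order of the Held group (helper329, for S3281)
-/

set_option autoImplicit false

namespace Cfsg.Agent.H329.HeOrd

open Cfsg Cfsg.Agent.OrdDiv

universe u

/-- a simple group of composite order is not abelian -/
theorem not_comm_of_card {H : Type u} [Group H] [Finite H] [IsSimpleGroup H]
    (hc : ¬ (Nat.card H).Prime) : ¬ ∀ a b : H, a * b = b * a := by
  intro h
  letI : CommGroup H := { (inferInstance : Group H) with mul_comm := h }
  exact hc IsSimpleGroup.prime_card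

theorem isoHe_of_card (T : OrderTable.{u}) {H : Type u} [Group H] [Finite H] [IsSimpleGroup H]
    (hk : IsKnownSimple' H) (hc : Nat.card H = 4030387200) : Spor.IsoHe H := by
  have hna : ¬ ∀ a b : H, a * b = b * a := not_comm_of_card (by rw [hc]; norm_num)
  obtain ⟨g, hg, hr⟩ := exists_real_filter T hk hna (l := [(2,10),(3,3),(5,2),(7,3),(17,1)]) (N := 4030387200)
    (by decide +kernel) (by rw [hc]) (fun n => n == 4030387200) (by rw [hc]; rfl)
  rw [show (cands [(2,10),(3,3),(5,2),(7,3),(17,1)] 4030387200).filter (fun g => (ordN g == 4030387200)) = [.he] from by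
    decide +kernel] at hg
  rw [List.mem_singleton.1 hg] at hr
  exact hr

end Cfsg.Agent.H329.HeOrd
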