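import Cfsg.Agent.H329.HePair
import Cfsg.Agent.H329.HeOrd
import Cfsg.Agent.H72.CentEquiv
import Cfsg.Agent.KFacts.He.Classes
import Cfsg.Agent.KFacts.He.Cent
import Cfsg.Agent.S0450

/-!
# S3281: involution centralizers as in the Held group (helper329)
-/

set_option autoImplicit false

open Cfsg Subgroup
open Cfsg.Agent.KFacts.He.Lv (gn)
open Cfsg.Agent.UGT.I34.Red Cfsg.Agent.UGT.I34.Cov Cfsg.Agent.UGT.I34.FourKind

namespace Cfsg.Agent.H329.HeMain

universe u v

/-- the isomorphism of centralizers induced by an isomorphism -/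
noncomputable def centEquiv {A B : Type*} [Group A] [Group B] (e : A ≃* B) (a : A) :
    ↥(centralizer ({a} : Set A)) ≃* ↥(centralizer ({e a} : Set B)) :=
  ((centralizer ({a} : Set A)).equivMapOfInjective e.toMonoidHom e.injective).trans
    (MulEquiv.subgroupCongr (Cfsg.Agent.UGT.I34.HeRec.map_cent e a))

theorem main (h2 : SimpleCase.{u} (kind' 2 2 noT)) (hB : SimpleCaseB.{u} four)
    (hb : ∀ (X : Type u) [Group X] [Finite X], HasBProperty X)
    (hn : ∀ (X : Type u) [Group X] (z : X) (L : Subgroup X), T22 X z L → Cfsg.Agent.KFacts.MulDef.NoDouble X)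
    {G : Type u} [Group G] [Finite G] [IsSimpleGroup G]
    {H : Type v} [Group H] [Finite H] (hH : Cfsg.Spor.IsoHe H) (u : H) (hu : orderOf u = 2)
    (t : G) (ht : orderOf t = 2) (e : ↥(Subgroup.centralizer ({t} : Set G)) ≃* ↥(Subgroup.centralizer ({u} : Set H))) :
    Nonempty (G ≃* Matrix.SpecialLinearGroup (Fin 5) (ZMod 2)) ∨ Cfsg.IsM24 G ∨ Cfsg.IsHe G := by
  obtain ⟨f⟩ := hH
  have hu0 : orderOf (f u) = 2 := by
    rw [← hu]; exact orderOf_injective f.toMonoidHom f.injective u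
  have h1 : f u * f u = 1 := by rw [← pow_two, ← hu0, pow_orderOf_eq_one]
  have h1' : f u ≠ 1 := by
    intro h
    rw [h, orderOf_one] at hu0
    norm_num at hu0
  have e1 := e.trans (centEquiv f u)
  rcases Cfsg.Agent.KFacts.He.Classes.two_classes_a h1 h1' with ⟨g, hg⟩ | ⟨g, hg⟩
  · -- the 2-central class
    have e2 : ↥(centralizer ({f u} : Set Cfsg.Spor.He)) ≃*
        ↥(centralizer ({Cfsg.Agent.KFacts.He.Bound.z} : Set Cfsg.Spor.He)) := by
      refine (centEquiv (MulAut.conj g⁻¹) (f u)).trans (MulEquiv.subgroupCongr ?_)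
      congr 2
      rw [MulAut.conj_apply, inv_inv, ← hg]; group
    let s : Matrix.SpecialLinearGroup (Fin 5) (ZMod 2) :=
      ⟨Matrix.transvection 0 1 1, Matrix.det_transvection_of_ne 0 1 (by decide) 1⟩
    have hs : (s : Matrix (Fin 5) (Fin 5) (ZMod 2)) = Matrix.transvection 0 1 1 := rfl
    obtain ⟨-, ⟨e3⟩⟩ := Cfsg.Agent.H72.CentEquiv.of_hyp Cfsg.Agent.KFacts.He.Hyp.hyp s hs
    exact Cfsg.Agent.S0450.result s hs t ht ((e1.trans e2).trans e3)
  · right; right
    have e2 : ↥(centralizer ({f u} : Set Cfsg.Spor.He)) ≃*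
        ↥(centralizer ({gn .a} : Set Cfsg.Spor.He)) := by
      refine (centEquiv (MulAut.conj g⁻¹) (f u)).trans (MulEquiv.subgroupCongr ?_)
      congr 2
      rw [MulAut.conj_apply, inv_inv, ← hg]
      show g⁻¹ * (g * gn .a * g⁻¹) * g = gn .a
      group
    obtain ⟨K, hK⟩ := HePair.exists_pair t ht (e1.trans e2)
    obtain ⟨i⟩ := HePair.isoHe_of_pair h2 hB hb hn G hK
    exact ⟨inferInstance, (Nat.card_congr i.toEquiv).trans Cfsg.Agent.KFacts.He.Cent.card_He⟩

end Cfsg.Agent.H329.HeMain
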