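import Cfsg.Agent.UGT.I34.HeRec
import Cfsg.Agent.UGT.I34.FourKind
import Cfsg.Agent.UGT.I34.Main
import Cfsg.Agent.KFacts.He.TwoA
import Cfsg.Agent.KFacts.He.RecL

/-!
# Simple groups with the centralizer of a non 2-central involution of the Held group (helper329, for S3281)
-/

set_option autoImplicit false

open Cfsg Subgroup
open Cfsg.Agent.SignalizersComponents Cfsg.Agent.Lib
open Cfsg.Agent.SignalizersComponents.IntrinsicBasic
open Cfsg.Agent.SignalizersComponents.PLayerAut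
open Cfsg.Agent.Intrinsic.Basic hiding IsPair PQS Target IsPair.sq IsPair.ne_one IsPair.cj
open Cfsg.Agent.UGT.I34.Pair Cfsg.Agent.UGT.I34.Red Cfsg.Agent.UGT.I34.Four Cfsg.Agent.UGT.I34.Cov
open Cfsg.Agent.UGT.I34.FourKind
open Cfsg.Agent.KFacts.He.Lv (gn)
open Cfsg.Agent.KFacts.He.TwoACent (L V v)
open Cfsg.Agent.KFacts.He

namespace Cfsg.Agent.H329.HePair

universe u

/-- `L` is of the kind `2².L₃(4)` -/
theorem isCv_L : IsCv 4 4 ↥L where
  qs := TwoA.isQuasisimple_L
  l34 := ⟨Cfsg.Agent.SporadicA.FieldFour.F4, inferInstance, inferInstance, rfl, ⟨TwoAPlane.quotEquiv⟩⟩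
  card := RecL.card_center_L
  om := by
    rw [← RecL.card_center_L]
    exact Nat.card_congr (Equiv.subtypeUnivEquiv fun z => Subtype.ext (RecL.center_sq z.2))

/-- the induction for the kind `2².L₃(4)` -/
theorem pqs (h2 : SimpleCase.{u} (kind' 2 2 noT)) (hB : SimpleCaseB.{u} four)
    (hb : ∀ (X : Type u) [Group X] [Finite X], HasBProperty X)
    (hn : ∀ (X : Type u) [Group X] (z : X) (L : Subgroup X), T22 X z L → Cfsg.Agent.KFacts.MulDef.NoDouble X)
    (N : ℕ) : PQS four.{u} N := by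
  refine pqs_below (κ := four) (fun X _ _ _ _ hP z L hp => hB X (hb X) hP z L hp) ?_ hn
  exact subKinds_of_settled (k := 2) (hQ := fun _ _ => trivial) (by norm_num) (by norm_num)
    (Cfsg.Agent.UGT.I34.Main.settled_two (Cfsg.Agent.UGT.I34.Main.settled_of_simple h2 Cfsg.Agent.UGT.I34.Main.goodT_noT))

/-- a simple group with a pair of the kind `2².L₃(4)` is `He` -/
theorem isoHe_of_pair (h2 : SimpleCase.{u} (kind' 2 2 noT)) (hB : SimpleCaseB.{u} four)
    (hb : ∀ (X : Type u) [Group X] [Finite X], HasBProperty X)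
    (hn : ∀ (X : Type u) [Group X] (z : X) (L : Subgroup X), T22 X z L → Cfsg.Agent.KFacts.MulDef.NoDouble X)
    (G : Type u) [Group G] [Finite G] [IsSimpleGroup G] {z : G} {K : Subgroup G} (hp : IsPair four z K) :
    Cfsg.Spor.IsoHe G :=
  hB G (hb G) (pqs h2 hB hb hn _) z K hp

/-- the pair from an isomorphism of centralizers -/
theorem exists_pair {G : Type u} [Group G] [Finite G] (t : G) (ht : orderOf t = 2)
    (f : ↥(centralizer ({t} : Set G)) ≃* ↥(centralizer ({gn .a} : Set Cfsg.Spor.He))) :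
    ∃ K : Subgroup G, IsPair four t K := by
  obtain ⟨hLC, hcomp⟩ := Cfsg.Agent.UGT.I34.HeRec.isComp_L
  have h1 := isPComponent_map_equiv 2 f.symm hcomp
  let C := centralizer ({t} : Set G)
  let LC := L.subgroupOf (centralizer ({gn .a} : Set Cfsg.Spor.He))
  let K0 : Subgroup C := LC.map f.symm.toMonoidHom
  let K : Subgroup G := K0.map C.subtype
  have hKC : K ≤ C := by
    rintro _ ⟨x, -, rfl⟩
    exact x.2
  have hK0 : K.subgroupOf C = K0 := Subgroup.comap_map_eq_self_of_injective C.subtype_injective K0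
  let e1 : ↥L ≃* ↥K :=
    ((Subgroup.subgroupOfEquivOfLe hLC).symm.trans
      (LC.equivMapOfInjective f.symm.toMonoidHom f.symm.injective)).trans
      (K0.equivMapOfInjective C.subtype C.subtype_injective)
  have hcore : oddCore ↥K = ⊥ := by
    have h2 := Lib.Cores.map_equiv_pPrimeCore e1 2
    show Cfsg.pPrimeCore 2 _ = ⊥
    rw [← h2, show Cfsg.pPrimeCore 2 ↥L = ⊥ from Cfsg.Agent.UGT.I34.HeRec.core_L, Subgroup.map_bot]
  have htt : t ∈ C := mem_centralizer_singleton_iff.2 rfl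
  refine ⟨K, ht, ?_, ⟨hKC, ?_⟩, ?_⟩
  · -- `f t` centralizes `L`
    have h3 : (f ⟨t, htt⟩ : Cfsg.Spor.He) ∈ V := by
      rw [TwoACent.mem_V]
      intro l hl
      have h4 : f.symm ⟨l, hLC hl⟩ * ⟨t, htt⟩ = ⟨t, htt⟩ * f.symm ⟨l, hLC hl⟩ :=
        Subtype.ext (mem_centralizer_singleton_iff.1 (f.symm ⟨l, hLC hl⟩).2)
      have h5 := congrArg f h4
      rw [map_mul, map_mul, f.apply_symm_apply] at h5
      exact congrArg Subtype.val h5
    refine ⟨⟨t, htt⟩, ⟨f ⟨t, htt⟩, ?_, ?_⟩, rfl⟩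
    · exact TwoACent.V_le_L h3
    · exact f.symm_apply_apply _
  · rw [hK0]
    exact h1
  · rw [four_iff]
    exact isCv_L.congr (e1.trans ((QuotientGroup.quotientMulEquivOfEq hcore).trans QuotientGroup.quotientBot).symm)

end Cfsg.Agent.H329.HePair
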